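import Mathlib

set_option autoImplicit false
set_option linter.unusedSectionVars false
set_option linter.unusedSimpArgs false

/-! Three by three block matrices, the twisted transpose and the adjoint with respect to the hermitian form
with Gram matrix `antidiag(1, 1, 1)` (helper86). -/

namespace Cfsg.Agent.Lib.Helper86

open Matrix

variable {r d : ℕ} {K : Type*} [Field K]

/-- the index type `W ⊕ V₀ ⊕ W'` -/
abbrev I3 (r d : ℕ) : Type := Fin r ⊕ (Fin d ⊕ Fin r)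

local notation "Mrr" => Matrix (Fin r) (Fin r) K
local notation "Mrd" => Matrix (Fin r) (Fin d) K
local notation "Mdr" => Matrix (Fin d) (Fin r) K
local notation "Mdd" => Matrix (Fin d) (Fin d) K
local notation "𝕍" => Matrix (I3 r d) (I3 r d) K

/-- block matrices -/
def B3 (a : Mrr) (b : Mrd) (c : Mrr) (d' : Mdr) (e : Mdd) (f : Mdr) (g : Mrr) (h : Mrd) (i : Mrr) : 𝕍 :=
  fromBlocks a (fromCols b c) (fromRows d' g) (fromBlocks e f h i)

theorem B3_mul (a : Mrr) (b : Mrd) (c : Mrr) (d' : Mdr) (e : Mdd) (f : Mdr) (g : Mrr) (h : Mrd) (i : Mrr)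
    (a₂ : Mrr) (b₂ : Mrd) (c₂ : Mrr) (d₂ : Mdr) (e₂ : Mdd) (f₂ : Mdr) (g₂ : Mrr) (h₂ : Mrd) (i₂ : Mrr) :
    B3 a b c d' e f g h i * B3 a₂ b₂ c₂ d₂ e₂ f₂ g₂ h₂ i₂ =
      B3 (a * a₂ + b * d₂ + c * g₂) (a * b₂ + b * e₂ + c * h₂) (a * c₂ + b * f₂ + c * i₂)
        (d' * a₂ + e * d₂ + f * g₂) (d' * b₂ + e * e₂ + f * h₂) (d' * c₂ + e * f₂ + f * i₂)
        (g * a₂ + h * d₂ + i * g₂) (g * b₂ + h * e₂ + i * h₂) (g * c₂ + h * f₂ + i * i₂) := by
  ext (x | x | x) (y | y | y) <;>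
    simp [B3, Matrix.mul_apply, Fintype.sum_sum_type, add_assoc]

theorem B3_one : (B3 1 0 0 0 1 0 0 0 1 : 𝕍) = 1 := by
  unfold B3
  rw [fromCols_zero, fromRows_zero, fromBlocks_one, fromBlocks_one]

theorem B3_inj {a : Mrr} {b : Mrd} {c : Mrr} {d' : Mdr} {e : Mdd} {f : Mdr} {g : Mrr} {h : Mrd} {i : Mrr}
    {a₂ : Mrr} {b₂ : Mrd} {c₂ : Mrr} {d₂ : Mdr} {e₂ : Mdd} {f₂ : Mdr} {g₂ : Mrr} {h₂ : Mrd} {i₂ : Mrr}
    (H : B3 a b c d' e f g h i = B3 a₂ b₂ c₂ d₂ e₂ f₂ g₂ h₂ i₂) :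
    a = a₂ ∧ b = b₂ ∧ c = c₂ ∧ d' = d₂ ∧ e = e₂ ∧ f = f₂ ∧ g = g₂ ∧ h = h₂ ∧ i = i₂ := by
  unfold B3 at H
  obtain ⟨h1, h2, h3, h4⟩ := fromBlocks_inj.mp H
  obtain ⟨h5, h6⟩ := fromCols_inj h2
  obtain ⟨h7, h8⟩ := fromRows_inj h3
  obtain ⟨h9, h10, h11, h12⟩ := fromBlocks_inj.mp h4
  exact ⟨h1, h5, h6, h7, h9, h10, h8, h11, h12⟩

theorem exists_B3 (M : 𝕍) : ∃ (a : Mrr) (b : Mrd) (c : Mrr) (d' : Mdr) (e : Mdd) (f : Mdr) (g : Mrr) (h : Mrd)
    (i : Mrr), M = B3 a b c d' e f g h i := by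
  refine ⟨M.toBlocks₁₁, M.toBlocks₁₂.toCols₁, M.toBlocks₁₂.toCols₂, M.toBlocks₂₁.toRows₁,
    M.toBlocks₂₂.toBlocks₁₁, M.toBlocks₂₂.toBlocks₁₂, M.toBlocks₂₁.toRows₂, M.toBlocks₂₂.toBlocks₂₁,
    M.toBlocks₂₂.toBlocks₂₂, ?_⟩
  unfold B3
  rw [fromCols_toCols, fromRows_toRows, fromBlocks_toBlocks, fromBlocks_toBlocks]

theorem B3_smul (t : K) (a : Mrr) (b : Mrd) (c : Mrr) (d' : Mdr) (e : Mdd) (f : Mdr) (g : Mrr) (h : Mrd)
    (i : Mrr) : t • B3 a b c d' e f g h i =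
      B3 (t • a) (t • b) (t • c) (t • d') (t • e) (t • f) (t • g) (t • h) (t • i) := by
  ext (x | x | x) (y | y | y) <;> simp [B3]

/-- determinant of a block upper triangular matrix -/
theorem B3_det_upper (a : Mrr) (b : Mrd) (c : Mrr) (e : Mdd) (f : Mdr) (i : Mrr) :
    (B3 a b c 0 e f 0 0 i).det = a.det * (e.det * i.det) := by
  unfold B3
  rw [fromRows_zero, det_fromBlocks_zero₂₁, det_fromBlocks_zero₂₁]

section dagger

variable (σ : K →+* K)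

/-- the twisted transpose -/
def dg {α β : Type*} (M : Matrix α β K) : Matrix β α K := (M.map σ)ᵀ

theorem dg_apply {α β : Type*} (M : Matrix α β K) (i : β) (j : α) : dg σ M i j = σ (M j i) := rfl

theorem dg_mul {α β γ : Type*} [Fintype β] (M : Matrix α β K) (N : Matrix β γ K) :
    dg σ (M * N) = dg σ N * dg σ M := by
  unfold dg
  rw [Matrix.map_mul, transpose_mul]

theorem dg_add {α β : Type*} (M N : Matrix α β K) : dg σ (M + N) = dg σ M + dg σ N := by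
  ext i j
  simp [dg_apply]

theorem dg_neg {α β : Type*} (M : Matrix α β K) : dg σ (-M) = - dg σ M := by
  ext i j
  simp [dg_apply]

theorem dg_sub {α β : Type*} (M N : Matrix α β K) : dg σ (M - N) = dg σ M - dg σ N := by
  ext i j
  simp [dg_apply]

theorem dg_zero {α β : Type*} : dg σ (0 : Matrix α β K) = 0 := by
  ext i j
  simp [dg_apply]

theorem dg_one {α : Type*} [DecidableEq α] : dg σ (1 : Matrix α α K) = 1 := by
  ext i j
  rw [dg_apply, Matrix.one_apply, Matrix.one_apply]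
  by_cases h : i = j
  · simp [h]
  · simp [h, Ne.symm h]

theorem dg_smul {α β : Type*} (t : K) (M : Matrix α β K) : dg σ (t • M) = σ t • dg σ M := by
  ext i j
  simp [dg_apply]

theorem dg_single {α β : Type*} [DecidableEq α] [DecidableEq β] (i : α) (j : β) (t : K) :
    dg σ (single i j t) = single j i (σ t) := by
  ext x y
  rw [dg_apply, Matrix.single_apply, Matrix.single_apply]
  by_cases h : i = y ∧ j = x
  · rw [if_pos h, if_pos ⟨h.2, h.1⟩]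
  · rw [if_neg h, if_neg (fun h' => h ⟨h'.2, h'.1⟩), map_zero]

theorem dg_dg (hσ : ∀ x, σ (σ x) = x) {α β : Type*} (M : Matrix α β K) : dg σ (dg σ M) = M := by
  ext i j
  simp [dg_apply, hσ]

theorem dg_det {α : Type*} [DecidableEq α] [Fintype α] (M : Matrix α α K) : (dg σ M).det = σ M.det := by
  unfold dg
  rw [det_transpose]
  exact (σ.map_det M).symm

theorem B3_dg (a : Mrr) (b : Mrd) (c : Mrr) (d' : Mdr) (e : Mdd) (f : Mdr) (g : Mrr) (h : Mrd) (i : Mrr) :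
    dg σ (B3 a b c d' e f g h i) =
      B3 (dg σ a) (dg σ d') (dg σ g) (dg σ b) (dg σ e) (dg σ h) (dg σ c) (dg σ f) (dg σ i) := by
  ext (x | x | x) (y | y | y) <;> simp [B3, dg_apply]

/-- the Gram matrix -/
def Phi3 (r d : ℕ) (K : Type*) [Field K] : Matrix (I3 r d) (I3 r d) K := B3 0 0 1 0 1 0 1 0 0

theorem Phi3_mul_self : Phi3 r d K * Phi3 r d K = 1 := by
  unfold Phi3
  rw [B3_mul, ← B3_one]
  simp

/-- the adjoint -/
def st (M : 𝕍) : 𝕍 := Phi3 r d K * dg σ M * Phi3 r d K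

theorem st_B3 (a : Mrr) (b : Mrd) (c : Mrr) (d' : Mdr) (e : Mdd) (f : Mdr) (g : Mrr) (h : Mrd) (i : Mrr) :
    st σ (B3 a b c d' e f g h i) =
      B3 (dg σ i) (dg σ f) (dg σ c) (dg σ h) (dg σ e) (dg σ b) (dg σ g) (dg σ d') (dg σ a) := by
  unfold st Phi3
  rw [B3_dg, B3_mul, B3_mul]
  simp

theorem st_mul (M N : 𝕍) : st σ (M * N) = st σ N * st σ M := by
  unfold st
  rw [dg_mul]
  calc Phi3 r d K * (dg σ N * dg σ M) * Phi3 r d K
      = Phi3 r d K * dg σ N * 1 * dg σ M * Phi3 r d K := by simp only [Matrix.mul_assoc, Matrix.one_mul]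
    _ = _ := by rw [← Phi3_mul_self]; simp only [Matrix.mul_assoc]

theorem st_one : st σ (1 : 𝕍) = 1 := by
  unfold st
  rw [dg_one, Matrix.mul_one, Phi3_mul_self]

theorem st_smul (t : K) (M : 𝕍) : st σ (t • M) = σ t • st σ M := by
  unfold st
  rw [dg_smul, Matrix.mul_smul, Matrix.smul_mul]

end dagger

end Cfsg.Agent.Lib.Helper86
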