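import Mathlib

/-!
# Piece P2 of the Babai farm (S5713): pure graph counting
-/

set_option autoImplicit false

namespace Cfsg.Agent.Lib.Helper86.Babai

open Finset

/-- [P2] pure graph counting -/
theorem graph_core {Ω : Type*} [Fintype Ω] [DecidableEq Ω] (Γ : SimpleGraph Ω) (hconn : Γ.Connected)
    (N : Ω → Finset Ω) (hN : ∀ x u, u ∈ N x ↔ Γ.Adj x u) (v m : ℕ) (hreg : ∀ x, (N x).card = v)
    (D : Ω → Ω → Finset Ω) (htri : ∀ x y w, D x w ⊆ D x y ∪ D y w)
    (hedge : ∀ x y, Γ.Adj x y → (D x y).card ≤ m)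
    (hsep : ∀ x w z, Γ.Adj x z → ¬ Γ.Adj w z → z ∈ D x w ∧ z ∈ D w x)
    (h2m : 2 * m < v) : Fintype.card Ω ≤ 1 + v + m := by
  classical
  obtain ⟨x⟩ := hconn.nonempty
  -- the general fact
  have star : ∀ a b, 2 * (N b \ N a).card ≤ (D a b).card ∧
      2 * v ≤ (D a b).card + 2 * (N a ∩ N b).card := by
    intro a b
    have h1 : N a \ N b ⊆ D a b := by
      intro z hz
      rw [mem_sdiff, hN, hN] at hz
      exact (hsep a b z hz.1 hz.2).1
    have h2 : N b \ N a ⊆ D a b := by
      intro z hz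
      rw [mem_sdiff, hN, hN] at hz
      exact (hsep b a z hz.1 hz.2).2
    have hdisj : Disjoint (N a \ N b) (N b \ N a) := by
      rw [Finset.disjoint_left]
      intro z hz hz'
      rw [mem_sdiff] at hz hz'
      exact hz.2 hz'.1
    have h3 : (N a \ N b).card + (N b \ N a).card ≤ (D a b).card := by
      rw [← card_union_of_disjoint hdisj]
      exact card_le_card (union_subset h1 h2)
    have h4 := card_sdiff_add_card_inter (N a) (N b)
    have h5 := card_sdiff_add_card_inter (N b) (N a)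
    rw [hreg] at h4 h5
    rw [inter_comm] at h5
    constructor <;> omega
  have htri' : ∀ a b c, (D a c).card ≤ (D a b).card + (D b c).card := fun a b c =>
    (card_le_card (htri a b c)).trans (card_union_le _ _)
  -- Step 1
  have step1 : ∀ w, w ≠ x → ¬ Γ.Adj x w → ∃ y, Γ.Adj x y ∧ Γ.Adj y w := by
    by_contra hcon
    push Not at hcon
    obtain ⟨w0, hw0x, hw0a, hw0⟩ := hcon
    let B2 : Set Ω := {w | w = x ∨ Γ.Adj x w ∨ ∃ y, Γ.Adj x y ∧ Γ.Adj y w}
    have hxB : x ∈ B2 := Or.inl rfl
    have hw0B : w0 ∉ B2 := by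
      rintro (h | h | ⟨y, hy1, hy2⟩)
      · exact hw0x h
      · exact hw0a h
      · exact hw0 y hy1 hy2
    obtain ⟨p⟩ := hconn.preconnected x w0
    obtain ⟨d, -, hq, hw⟩ := p.exists_boundary_dart B2 hxB hw0B
    have hadj := d.adj
    set q := d.fst
    set w := d.snd
    have hqx : q ≠ x := by
      intro h
      exact hw (Or.inr (Or.inl (h ▸ hadj)))
    have hxq : ¬ Γ.Adj x q := fun h => hw (Or.inr (Or.inr ⟨q, h, hadj⟩))
    obtain ⟨r, hxr, hrq⟩ : ∃ r, Γ.Adj x r ∧ Γ.Adj r q := by
      rcases hq with h | h | h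
      · exact absurd h hqx
      · exact absurd h hxq
      · exact h
    have hemp : N x ∩ N w = ∅ := by
      rw [Finset.eq_empty_iff_forall_notMem]
      intro z hz
      rw [mem_inter, hN, hN] at hz
      exact hw (Or.inr (Or.inr ⟨z, hz.1, hz.2.symm⟩))
    have h1 := (star x w).2
    rw [hemp, card_empty] at h1
    have h2 := htri' x r w
    have h3 := htri' r q w
    have h4 := hedge x r hxr
    have h5 := hedge r q hrq
    have h6 := hedge q w hadj
    omega
  set T : Finset Ω := univ \ insert x (N x) with hT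
  have hxN : x ∉ N x := by
    rw [hN]; exact Γ.loopless.irrefl x
  have hcard : T.card + (1 + v) = Fintype.card Ω := by
    have := card_sdiff_add_card_eq_card (subset_univ (insert x (N x)))
    rw [card_insert_of_notMem hxN, hreg, card_univ] at this
    rw [hT]
    omega
  have hTmem : ∀ w, w ∈ T ↔ w ≠ x ∧ ¬ Γ.Adj x w := by
    intro w
    rw [hT, mem_sdiff, mem_insert, hN]
    simp
  -- Step 2
  have step2 : ∀ w ∈ T, v ≤ m + ((N x).filter (fun y => y ∈ N w)).card := by
    intro w hw
    rw [hTmem] at hw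
    obtain ⟨y, hy1, hy2⟩ := step1 w hw.1 hw.2
    have h1 := (star x w).2
    have h2 := htri' x y w
    have h3 := hedge x y hy1
    have h4 := hedge y w hy2
    rw [filter_mem_eq_inter]
    omega
  -- Step 3
  have step3 : ∀ y ∈ N x, 2 * (T.filter (fun w => y ∈ N w)).card ≤ m := by
    intro y hy
    have hsub : T.filter (fun w => y ∈ N w) ⊆ N y \ N x := by
      intro w hw
      rw [mem_filter, hTmem, hN] at hw
      rw [mem_sdiff, hN, hN]
      exact ⟨hw.2.symm, hw.1.2⟩
    have h1 := card_le_card hsub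
    have h2 := (star x y).1
    have h3 := hedge x y ((hN x y).mp hy)
    omega
  -- Step 4
  have step4 : ∑ w ∈ T, ((N x).filter (fun y => y ∈ N w)).card =
      ∑ y ∈ N x, (T.filter (fun w => y ∈ N w)).card :=
    sum_card_bipartiteAbove_eq_sum_card_bipartiteBelow (fun w y => y ∈ N w)
  have hA : T.card * v ≤ T.card * m + ∑ w ∈ T, ((N x).filter (fun y => y ∈ N w)).card := by
    have : ∑ _w ∈ T, v ≤ ∑ w ∈ T, (m + ((N x).filter (fun y => y ∈ N w)).card) :=
      sum_le_sum step2
    rw [sum_const, smul_eq_mul, sum_add_distrib, sum_const, smul_eq_mul] at this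
    exact this
  have hB : 2 * ∑ y ∈ N x, (T.filter (fun w => y ∈ N w)).card ≤ v * m := by
    rw [mul_sum]
    have : ∑ y ∈ N x, 2 * (T.filter (fun w => y ∈ N w)).card ≤ ∑ _y ∈ N x, m := sum_le_sum step3
    rw [sum_const, smul_eq_mul, hreg] at this
    exact this
  rw [step4] at hA
  have hfin : T.card ≤ m := by
    by_contra hlt
    push Not at hlt
    set t := T.card
    set S := ∑ y ∈ N x, (T.filter (fun w => y ∈ N w)).card
    have h1 : t * (2 * m + 1) ≤ t * v := Nat.mul_le_mul_left t h2m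
    have h2 : (m + 1) * (v + 1) ≤ t * (v + 1) := Nat.mul_le_mul_right (v + 1) hlt
    nlinarith
  omega

end Cfsg.Agent.Lib.Helper86.Babai
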