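import Mathlib

/-!
# Piece P3 of the Babai farm (S5713): double counting
-/

set_option autoImplicit false

namespace Cfsg.Agent.Lib.Helper86.Babai

open Finset

/-- [P3] every vertex has a neighbour separated from it by `z`; double counting -/
theorem card_le_val_mul {G Ω : Type*} [Group G] [MulAction G Ω] [Fintype Ω] [DecidableEq Ω]
    [Nontrivial Ω]
    (Γ : SimpleGraph Ω) (hconn : Γ.Connected)
    (hinv : ∀ (k : G) (x y : Ω), Γ.Adj x y → Γ.Adj (k • x) (k • y))
    (N : Ω → Finset Ω) (hN : ∀ x u, u ∈ N x ↔ Γ.Adj x u) (v m : ℕ) (hreg : ∀ x, (N x).card ≤ v)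
    (D : Ω → Ω → Finset Ω) (hD : ∀ x y z, z ∈ D x y ↔ ∀ k : G, k • z = z → k • x ≠ y)
    (hedge : ∀ x y, Γ.Adj x y → (D x y).card ≤ m) :
    Fintype.card Ω ≤ v * m := by
  classical
  -- (a)
  have ha : ∀ z u, ∃ u', Γ.Adj u u' ∧ z ∈ D u u' := by
    intro z u
    let C : Set Ω := {y | ∃ k : G, k • z = z ∧ k • u = y}
    have huC : u ∈ C := ⟨1, one_smul _ _, one_smul _ _⟩
    obtain ⟨y0, hy0⟩ : ∃ y0, y0 ∉ C := by
      by_cases huz : u = z
      · obtain ⟨y, hy⟩ := exists_ne z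
        refine ⟨y, ?_⟩
        rintro ⟨k, hk1, hk2⟩
        rw [huz, hk1] at hk2
        exact hy hk2.symm
      · refine ⟨z, ?_⟩
        rintro ⟨k, hk1, hk2⟩
        exact huz (MulAction.injective k (hk2.trans hk1.symm))
    obtain ⟨p⟩ := hconn.preconnected u y0
    obtain ⟨d, -, ⟨k, hk1, hk2⟩, hw⟩ := p.exists_boundary_dart C huC hy0
    have hadj := d.adj
    refine ⟨k⁻¹ • d.snd, ?_, ?_⟩
    · have := hinv k⁻¹ _ _ hadj
      rwa [← hk2, inv_smul_smul] at this
    · rw [hD]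
      intro k' hk' hku
      apply hw
      refine ⟨k * k', ?_, ?_⟩
      · rw [mul_smul, hk', hk1]
      · rw [mul_smul, hku, smul_inv_smul]
  -- (b)
  set n := Fintype.card Ω with hn
  have h1 : n * n ≤ ∑ u : Ω, ∑ z : Ω, ((N u).filter (fun u' => z ∈ D u u')).card := by
    have : ∑ _u : Ω, ∑ _z : Ω, 1 ≤ ∑ u : Ω, ∑ z : Ω, ((N u).filter (fun u' => z ∈ D u u')).card := by
      refine sum_le_sum fun u _ => sum_le_sum fun z _ => ?_
      obtain ⟨u', hu1, hu2⟩ := ha z u
      exact card_pos.mpr ⟨u', mem_filter.mpr ⟨(hN u u').mpr hu1, hu2⟩⟩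
    simpa [hn] using this
  have h2 : ∀ u : Ω, ∑ z : Ω, ((N u).filter (fun u' => z ∈ D u u')).card ≤ v * m := by
    intro u
    have e : ∑ z : Ω, ((N u).filter (fun u' => z ∈ D u u')).card =
        ∑ u' ∈ N u, ((univ : Finset Ω).filter (fun z => z ∈ D u u')).card :=
      sum_card_bipartiteAbove_eq_sum_card_bipartiteBelow (fun z u' => z ∈ D u u')
    rw [e]
    calc ∑ u' ∈ N u, ((univ : Finset Ω).filter (fun z => z ∈ D u u')).card
        ≤ ∑ _u' ∈ N u, m := by
          refine sum_le_sum fun u' hu' => ?_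
          refine le_trans (card_le_card fun z hz => (mem_filter.mp hz).2) ?_
          exact hedge u u' ((hN u u').mp hu')
      _ = (N u).card * m := by rw [sum_const, smul_eq_mul]
      _ ≤ v * m := Nat.mul_le_mul_right m (hreg u)
  have h3 : n * n ≤ n * (v * m) := by
    refine h1.trans ?_
    have : ∑ u : Ω, ∑ z : Ω, ((N u).filter (fun u' => z ∈ D u u')).card ≤ ∑ _u : Ω, v * m :=
      sum_le_sum fun u _ => h2 u
    simpa [hn] using this
  have hpos : 0 < n := Fintype.card_pos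
  exact Nat.le_of_mul_le_mul_left h3 hpos

end Cfsg.Agent.Lib.Helper86.Babai
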