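import Mathlib

/-!
# Piece P4 of the Babai farm (S5713): 2-homogeneous groups, union bound
-/

set_option autoImplicit false

namespace Cfsg.Agent.Lib.Helper86.Babai

open Finset

/-- [P4] 2-homogeneous case: union bound -/
theorem exists_inter_singleton {G Ω : Type*} [Group G] [Finite G] [MulAction G Ω] [Fintype Ω]
    [DecidableEq Ω]
    (h2 : ∀ a b c d : Ω, a ≠ b → c ≠ d →
      ∃ k : G, (k • a = c ∧ k • b = d) ∨ (k • a = d ∧ k • b = c))
    (S : Finset Ω) (α : Ω) (hα : α ∈ S) (hlt : (S.card - 1) ^ 2 < Fintype.card Ω - 1) :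
    ∃ k : G, k⁻¹ • α ∈ S ∧ ∀ z ∈ S, k⁻¹ • z ∈ S → z = α := by
  classical
  have : Fintype G := Fintype.ofFinite G
  by_contra hcon
  push Not at hcon
  set A : Finset G := univ.filter (fun k : G => k⁻¹ • α ∈ S) with hA
  let AB : Ω → Finset G := fun β => A.filter (fun k => k⁻¹ • β ∈ S)
  have hmemA : ∀ k, k ∈ A ↔ k⁻¹ • α ∈ S := by
    intro k; rw [hA, mem_filter]; simp
  have hmemAB : ∀ β k, k ∈ AB β ↔ k⁻¹ • α ∈ S ∧ k⁻¹ • β ∈ S := by
    intro β k
    show k ∈ A.filter _ ↔ _
    rw [mem_filter, hmemA]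
  have h1A : (1 : G) ∈ A := by rw [hmemA]; simpa using hα
  have hR : 0 < A.card := card_pos.mpr ⟨1, h1A⟩
  -- (i)
  have hle : ∀ β β', β ≠ α → β' ≠ α → (AB β).card ≤ (AB β').card := by
    intro β β' hβ hβ'
    obtain ⟨h, hh⟩ := h2 α β α β' hβ.symm hβ'.symm
    apply card_le_card_of_injOn (fun k => h * k)
    · intro k hk
      have hk' := (hmemAB β k).mp (mem_coe.mp hk)
      apply mem_coe.mpr
      rw [hmemAB, mul_inv_rev, mul_smul, mul_smul]
      rcases hh with ⟨e1, e2⟩ | ⟨e1, e2⟩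
      · have f1 : h⁻¹ • α = α := by rw [inv_smul_eq_iff, e1]
        have f2 : h⁻¹ • β' = β := by rw [inv_smul_eq_iff, e2]
        rw [f1, f2]; exact hk'
      · have f1 : h⁻¹ • α = β := by rw [inv_smul_eq_iff, e2]
        have f2 : h⁻¹ • β' = α := by rw [inv_smul_eq_iff, e1]
        rw [f1, f2]; exact ⟨hk'.2, hk'.1⟩
    · intro a _ b _ hab
      exact mul_left_cancel hab
  have hn : 0 < Fintype.card Ω - 1 := lt_of_le_of_lt (Nat.zero_le _) hlt
  obtain ⟨β₀, hβ₀⟩ : ∃ β₀ : Ω, β₀ ≠ α := by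
    have : 1 < Fintype.card Ω := by omega
    have : Nontrivial Ω := Fintype.one_lt_card_iff_nontrivial.mp this
    exact exists_ne α
  set L := (AB β₀).card with hLdef
  have hL : ∀ β, β ≠ α → (AB β).card = L := fun β hβ =>
    le_antisymm (hle β β₀ hβ hβ₀) (hle β₀ β hβ₀ hβ)
  -- (ii)
  have sum1 : ∑ β ∈ (univ : Finset Ω).erase α, (AB β).card = (Fintype.card Ω - 1) * L := by
    rw [sum_congr rfl (fun β hβ => hL β (ne_of_mem_erase hβ)), sum_const, smul_eq_mul,
      card_erase_of_mem (mem_univ α), card_univ]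
  have sum2 : ∑ β ∈ (univ : Finset Ω).erase α, (AB β).card = A.card * (S.card - 1) := by
    have e : ∑ β ∈ (univ : Finset Ω).erase α, (AB β).card =
        ∑ k ∈ A, (((univ : Finset Ω).erase α).filter (fun β => k⁻¹ • β ∈ S)).card :=
      sum_card_bipartiteAbove_eq_sum_card_bipartiteBelow (fun β k => k⁻¹ • β ∈ S)
    rw [e]
    have : ∀ k ∈ A, (((univ : Finset Ω).erase α).filter (fun β => k⁻¹ • β ∈ S)).card =
        S.card - 1 := by
      intro k hk
      have e2 : ((univ : Finset Ω).erase α).filter (fun β => k⁻¹ • β ∈ S) =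
          (S.image (fun s => k • s)).erase α := by
        ext β
        simp only [mem_filter, mem_erase, mem_univ, and_true, mem_image]
        constructor
        · rintro ⟨h1, h3⟩
          exact ⟨h1, k⁻¹ • β, h3, smul_inv_smul k β⟩
        · rintro ⟨h1, s, hs, rfl⟩
          exact ⟨h1, by rwa [inv_smul_smul]⟩
      rw [e2, card_erase_of_mem, card_image_of_injective _ (MulAction.injective k)]
      rw [mem_image]
      exact ⟨k⁻¹ • α, (hmemA k).mp hk, smul_inv_smul k α⟩
    rw [sum_congr rfl this, sum_const, smul_eq_mul]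
  -- (iii)
  have hcover : A ⊆ (S.erase α).biUnion AB := by
    intro k hk
    obtain ⟨z, hz, hkz, hzα⟩ := hcon k ((hmemA k).mp hk)
    rw [mem_biUnion]
    exact ⟨z, mem_erase.mpr ⟨hzα, hz⟩, (hmemAB z k).mpr ⟨(hmemA k).mp hk, hkz⟩⟩
  have h3 : A.card ≤ (S.card - 1) * L := by
    refine (card_le_card hcover).trans (card_biUnion_le.trans ?_)
    rw [sum_congr rfl (fun z hz => hL z (ne_of_mem_erase hz)), sum_const, smul_eq_mul,
      card_erase_of_mem hα]
  have h4 : (Fintype.card Ω - 1) * L = A.card * (S.card - 1) := sum1.symm.trans sum2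
  have h5 : A.card * (Fintype.card Ω - 1) ≤ A.card * (S.card - 1) ^ 2 := by
    calc A.card * (Fintype.card Ω - 1) ≤ ((S.card - 1) * L) * (Fintype.card Ω - 1) :=
          Nat.mul_le_mul_right _ h3
      _ = (S.card - 1) * ((Fintype.card Ω - 1) * L) := by ring
      _ = A.card * (S.card - 1) ^ 2 := by rw [h4]; ring
  have h6 := Nat.le_of_mul_le_mul_left h5 hR
  omega

end Cfsg.Agent.Lib.Helper86.Babai
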