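import Cfsg.Agent.Lib.Helper20.QD

/-!
# MC-U: quasi-dihedral groups of the same order are isomorphic
-/

set_option autoImplicit false

namespace Cfsg.Agent.Lib.Helper86.MC

open Cfsg.Agent.Lib.Helper20.QD

/-- the normal form map -/
def gg {S : Type*} [Group S] (d : Dat S) : ZMod (2 ^ d.n) ⊕ ZMod (2 ^ d.n) → S :=
  Sum.elim (X d) (Y d)

/-- the multiplication on normal forms -/
def mm (n : ℕ) : ZMod (2 ^ n) ⊕ ZMod (2 ^ n) → ZMod (2 ^ n) ⊕ ZMod (2 ^ n) →
    ZMod (2 ^ n) ⊕ ZMod (2 ^ n)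
  | Sum.inl i, Sum.inl j => Sum.inl (i + j)
  | Sum.inl i, Sum.inr j => Sum.inr (i + j)
  | Sum.inr i, Sum.inl j => Sum.inr (i + (hh n - 1) * j)
  | Sum.inr i, Sum.inr j => Sum.inl (i + (hh n - 1) * j)

theorem gg_mul {S : Type*} [Group S] (d : Dat S) (a b : ZMod (2 ^ d.n) ⊕ ZMod (2 ^ d.n)) :
    gg d (mm d.n a b) = gg d a * gg d b := by
  rcases a with i | i <;> rcases b with j | j
  · exact (X_mul_X d i j).symm
  · exact (X_mul_Y d i j).symm
  · exact (Y_mul_X d i j).symm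
  · exact (Y_mul_Y d i j).symm

theorem gg_bijective {S : Type*} [Group S] [Finite S] (d : Dat S) : Function.Bijective (gg d) := by
  constructor
  · rintro (i | i) (j | j) h
    · exact congrArg Sum.inl (X_inj d h)
    · exact absurd h (X_ne_Y d i j)
    · exact absurd h (Y_ne_X d i j)
    · exact congrArg Sum.inr ((Y_eq_iff d).mp h)
  · intro s
    rcases cases d s with ⟨i, rfl⟩ | ⟨i, rfl⟩
    · exact ⟨Sum.inl i, rfl⟩
    · exact ⟨Sum.inr i, rfl⟩

theorem quasidihedral_unique {A B : Type*} [Group A] [Group B] (hA : Cfsg.IsQuasiDihedral A)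
    (hB : Cfsg.IsQuasiDihedral B) (h : Nat.card A = Nat.card B) : Nonempty (A ≃* B) := by
  obtain ⟨n, hn, hc, x, y, ox, oy, rel⟩ := hA
  obtain ⟨n', hn', hc', x', y', ox', oy', rel'⟩ := hB
  have hnn : n' = n := by
    rw [hc, hc'] at h
    have := Nat.pow_right_injective (le_refl 2) h
    omega
  subst hnn
  have hfA : Finite A := Nat.finite_of_card_ne_zero (by rw [hc]; positivity)
  have hfB : Finite B := Nat.finite_of_card_ne_zero (by rw [hc']; positivity)
  let dA : Dat A := ⟨n', hn, hc, x, y, ox, oy, rel⟩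
  let dB : Dat B := ⟨n', hn', hc', x', y', ox', oy', rel'⟩
  let eA : ZMod (2 ^ n') ⊕ ZMod (2 ^ n') ≃ A := Equiv.ofBijective (gg dA) (gg_bijective dA)
  let eB : ZMod (2 ^ n') ⊕ ZMod (2 ^ n') ≃ B := Equiv.ofBijective (gg dB) (gg_bijective dB)
  refine ⟨MulEquiv.mk' (eA.symm.trans eB) ?_⟩
  intro s t
  obtain ⟨a, rfl⟩ := eA.surjective s
  obtain ⟨b, rfl⟩ := eA.surjective t
  have h1 : eA a * eA b = eA (mm n' a b) := (gg_mul dA a b).symm
  have h2 : eB a * eB b = eB (mm n' a b) := (gg_mul dB a b).symm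
  rw [h1]
  simp only [Equiv.trans_apply, Equiv.symm_apply_apply]
  exact h2.symm

end Cfsg.Agent.Lib.Helper86.MC
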