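import Cfsg.Agent.Lib.Helper27.M24Order
import Cfsg.Prelude.Def_Spor_Mathieu

set_option autoImplicit false

/-! `M23` and `M22` as fixers in the sense of helper27 (helper86). -/

namespace Cfsg.Agent.Lib.Helper86

open Cfsg Cfsg.Agent.Lib.Helper27
open scoped Pointwise

theorem M23_eq : Spor.M23 = fixer L1 := by
  ext g
  have h23 : (none : GolayPt) = pt 23 := by decide
  have e : fixer L1 = fixer (2 ^ 23 :: []) := rfl
  rw [Spor.M23, Subgroup.mem_inf, MulAction.mem_stabilizer_iff, e, mem_fixer_cons, fixer_nil,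
    smul_unmask_two_pow (by norm_num), h23]
  rfl

theorem M22_eq : Spor.M22 = fixer L2 := by
  ext g
  have h0 : (some 0 : GolayPt) = pt 0 := by decide
  have e : fixer L2 = fixer (2 ^ 0 :: L1) := rfl
  rw [Spor.M22, Subgroup.mem_inf, M23_eq, MulAction.mem_stabilizer_iff, e, mem_fixer_cons,
    smul_unmask_two_pow (by norm_num), h0]
  rfl

end Cfsg.Agent.Lib.Helper86
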